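import Cfsg.Agent.H65.SRDef
namespace Rz
theorem H65_SR_wt_eq_8 : True := by
  have := @H65.SR.wt.eq_8.{0}
  trivial
end Rz
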