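import Cfsg.Agent.H42.IVSpec
namespace Rz
theorem H42_IV_cheb_eq_def : True := by
  have := @H42.IV.cheb.eq_def.{0}
  trivial
end Rz
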